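import Cfsg.Agent.Lib.SylNum.Cop

/-!
# The minimal configuration, first part
-/

set_option autoImplicit false
set_option linter.unusedSectionVars false

namespace CfsgLib.SylNum

open Subgroup MulAction Cfsg CfsgLib.H1 CfsgLib.Cop

/-- numerical type `N` -/
def TN (p f m : ℕ) : Prop := ∃ w, f < p * w ∧ p * w + m ≤ p * m

theorem bound_of_not_TN {p f m : ℕ} (hp : 0 < p) (h : ¬ TN p f m) : p * m + 1 ≤ f + m + p := by
  by_contra e
  refine h ⟨f / p + 1, Nat.lt_mul_div_succ f hp, ?_⟩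
  have := Nat.mul_div_le f p
  rw [mul_add, mul_one]
  omega

theorem bound_of_not_TN' {p f m : ℕ} (hp : 0 < p) (h : ¬ TN p f m) (h' : ¬ p ∣ f) :
    p * m + 2 ≤ f + m + p := by
  by_contra e
  refine h ⟨f / p + 1, Nat.lt_mul_div_succ f hp, ?_⟩
  have := (Nat.mul_div_le f p).lt_of_ne fun e => h' ⟨_, e.symm⟩
  rw [mul_add, mul_one]
  omega

theorem small_arith {p f m : ℕ} (hp : 2 ≤ p)
    (h : (2 * p - 1) * (2 * p - 1) * f ≤ (p - 1) * (p - 1) * (f + p * m))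
    (h' : p * m + 1 ≤ f + m + p) : f + p * m < 2 * p := by
  obtain ⟨q, rfl⟩ : ∃ q, p = q + 1 := ⟨p - 1, by omega⟩
  rw [show 2 * (q + 1) - 1 = 2 * q + 1 by omega, Nat.add_sub_cancel] at h
  have h1 : (3 * q + 1) * f ≤ q * q * m := by
    refine Nat.le_of_mul_le_mul_left ?_ (Nat.succ_pos q)
    nlinarith
  have h2 : m ≤ 1 := by
    by_contra e
    have h3 : q * m ≤ f + q := by nlinarith
    have h4 : q * ((2 * q + 1) * m) ≤ q * (3 * q + 1) := by
      nlinarith [Nat.mul_le_mul_left (3 * q + 1) h3]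
    have h5 := Nat.le_of_mul_le_mul_left h4 (by omega)
    nlinarith
  have h3 : f ≤ q := by
    by_contra e
    nlinarith [Nat.mul_le_mul_left (q * q) h2]
  nlinarith

theorem strict_of_cross {p f m f' m' : ℕ} (h : f * m' = f' * m) (h1 : f + m < p * m)
    (h2 : 0 < m') : f' + m' < p * m' := by
  by_contra e
  nlinarith [Nat.mul_le_mul_left m (not_lt.1 e), Nat.mul_le_mul_left m' (Nat.succ_le_of_lt h1)]

theorem eq_of_cross {p f m f' m' : ℕ} (h : f * m' = f' * m) (h1 : f + m = p * m)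
    (h2 : 0 < m) : f' + m' = p * m' := by
  refine Nat.eq_of_mul_eq_mul_left h2 ?_
  calc m * (f' + m') = (f + m) * m' := by rw [add_mul, h]; ring
    _ = _ := by rw [h1]; ring

theorem dc_le {ι κ : Type*} [Finite ι] [Finite κ] (I : Set ι) (B : Set κ) (r : ι → κ → Prop)
    {m n : ℕ} (hm : ∀ i ∈ I, m ≤ {x ∈ B | r i x}.ncard)
    (hn : ∀ x ∈ B, {i ∈ I | r i x}.ncard ≤ n) : I.ncard * m ≤ B.ncard * n := by
  classical
  rw [Set.ncard_eq_toFinset_card I, Set.ncard_eq_toFinset_card B]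
  refine Finset.card_mul_le_card_mul r (fun x hx => ?_) fun x hx => ?_
  · refine (hm x ((Set.Finite.mem_toFinset _).1 hx)).trans_eq ?_
    rw [← Set.ncard_coe_finset]
    congr 1
    ext y
    simp [Finset.bipartiteAbove]
  · refine le_of_eq_of_le ?_ (hn x ((Set.Finite.mem_toFinset _).1 hx))
    rw [← Set.ncard_coe_finset]
    congr 1
    ext y
    simp [Finset.bipartiteBelow]

theorem card_family {ι κ : Type*} [Finite ι] [Finite κ] (I : Set ι) (B : Set κ) (A : ι → Set κ)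
    {m : ℕ} (h1 : ∀ i ∈ I, A i ⊆ B) (hm : ∀ i ∈ I, m ≤ (A i).ncard)
    (h2 : ∀ i ∈ I, ∀ j ∈ I, ∀ x, x ∈ A i → x ∈ A j → i = j) : I.ncard * m ≤ B.ncard := by
  rw [← mul_one B.ncard]
  refine dc_le I B (fun i x => x ∈ A i) (fun i hi => (hm i hi).trans
    (Set.ncard_le_ncard fun x hx => ⟨h1 i hi hx, hx⟩)) fun x _ => ?_
  exact (Set.ncard_le_one (Set.toFinite _)).2 fun i hi j hj => h2 i hi.1 j hj.1 x hi.2 hj.2

variable {G : Type*} [Group G] [Finite G] {p : ℕ} [hp : Fact p.Prime]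
  {Ω : Type*} [MulAction G Ω] [Finite Ω]

theorem fx_diff (S : Subgroup G) {A B : Set Ω} (h : A ⊆ B) : fx S B = fx S A + fx S (B \ A) := by
  rw [← fx_union S Set.disjoint_sdiff_right, Set.union_diff_cancel h]

theorem mm_diff {S : Subgroup G} (hS : IsPGroup p S) {A B : Set Ω} (h : A ⊆ B) (hA : Inv S A)
    (hB : Inv S B) : mm p S B = mm p S A + mm p S (B \ A) := by
  rw [← mm_union hS Set.disjoint_sdiff_right hA (hB.diff hA), Set.union_diff_cancel h]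

theorem fx_singleton {S : Subgroup G} {a : Ω} (h : S ≤ stabilizer G a) : fx S {a} = 1 := by
  rw [fx, Set.inter_eq_left.2 (Set.singleton_subset_iff.2 h), Set.ncard_singleton]

theorem mm_singleton {S : Subgroup G} {a : Ω} (h : S ≤ stabilizer G a) : mm p S {a} = 0 := by
  rw [mm, Set.diff_eq_empty.2 (Set.singleton_subset_iff.2 h), Set.ncard_empty, Nat.zero_div]

theorem fx_univ {S : Subgroup G} {a : Ω} (h : S ≤ stabilizer G a) :
    fx S (Set.univ : Set Ω) = fx S {a}ᶜ + 1 := by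
  rw [fx_diff S (Set.subset_univ {a}), fx_singleton h, add_comm, Set.compl_eq_univ_diff]

theorem mm_univ {S : Subgroup G} (hS : IsPGroup p S) {a : Ω} (h : S ≤ stabilizer G a) :
    mm p S (Set.univ : Set Ω) = mm p S {a}ᶜ := by
  rw [mm_diff hS (Set.subset_univ {a}) (inv_singleton h) (inv_univ S), mm_singleton h, zero_add,
    Set.compl_eq_univ_diff]

theorem fx_conj (g : G) (S : Subgroup G) {A B : Set Ω} (h : ∀ x, x ∈ A ↔ g • x ∈ B) :
    fx (g ⋆ S) B = fx S A :=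
  (ncard_eq_of_smul g (A := A ∩ Fx S) (B := B ∩ Fx (g ⋆ S)) fun x =>
    and_congr (h x) conj_le_stab.symm).symm

theorem mm_conj (g : G) (S : Subgroup G) {A B : Set Ω} (h : ∀ x, x ∈ A ↔ g • x ∈ B) :
    mm p (g ⋆ S) B = mm p S A :=
  congrArg (· / p) (ncard_eq_of_smul g (A := A \ Fx S) (B := B \ Fx (g ⋆ S)) fun x =>
    and_congr (h x) (not_congr conj_le_stab.symm)).symm

theorem cross {Ω' : Type*} [MulAction G Ω'] [Finite Ω'] {S S' : Sylow p G} {Y Y' : Subgroup G}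
    (h : (S : Subgroup G) ≤ Y) (h' : (S' : Subgroup G) ≤ Y') {b : Ω} {b' : Ω'}
    (e1 : nu p Y = nu p Y') (e2 : nu p (Y ⊓ stabilizer G b) = nu p (Y' ⊓ stabilizer G b')) :
    fx (S : Subgroup G) (orb Y b) * mm p (S' : Subgroup G) (orb Y' b') =
      fx (S' : Subgroup G) (orb Y' b') * mm p (S : Subgroup G) (orb Y b) := by
  have h1 := fx_mul_nu h b
  have h2 := fx_mul_nu h' b'
  rw [ncard_eq S.isPGroup' ((inv_orb Y b).mono h), e1, e2] at h1
  rw [ncard_eq S'.isPGroup' ((inv_orb Y' b').mono h')] at h2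
  refine Nat.eq_of_mul_eq_mul_left (mul_pos hp.out.pos (nu_pos h')) ?_
  zify at h1 h2 ⊢
  linear_combination ((fx (S' : Subgroup G) (orb Y' b') : ℤ) + p * mm p (S' : Subgroup G)
    (orb Y' b')) * h1 - ((fx (S : Subgroup G) (orb Y b) : ℤ) + p * mm p (S : Subgroup G)
    (orb Y b)) * h2

theorem orb_mul_orb {Ω' : Type*} [MulAction G Ω'] (Y : Subgroup G) (b : Ω) (s : Ω') :
    (orb (Y ⊓ stabilizer G b) s).ncard * (orb Y b).ncard =
      (orb (Y ⊓ stabilizer G s) b).ncard * (orb Y s).ncard := by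
  simp only [ncard_orb]
  rw [← inf_relIndex_right (stabilizer G b) Y, ← inf_relIndex_right (stabilizer G s) Y,
    ← inf_relIndex_right (stabilizer G s) (Y ⊓ _), ← inf_relIndex_right (stabilizer G b) (Y ⊓ _),
    inf_comm Y, inf_comm Y, relIndex_mul_relIndex _ _ _ inf_le_right inf_le_right,
    relIndex_mul_relIndex _ _ _ inf_le_right inf_le_right, inf_left_comm]

/-- structural type `A` -/
def TA (p : ℕ) (Y : Subgroup G) (b : Ω) : Prop :=
  ∃ M, Y ⊓ stabilizer G b ≤ M ∧ M < Y ∧ M.relIndex Y < 2 * p ∧ gen p M ≤ stabilizer G b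

local notation "𝐒(" a ")" => stabilizer G a
local notation "𝐋(" a ")" => gen p (stabilizer G a)
local notation "𝐋(" a ", " b ")" => gen p (stabilizer G a ⊓ stabilizer G b)
local notation "𝐧(" a ", " b ")" => nu p (stabilizer G a ⊓ stabilizer G b)

theorem L2_conj (g : G) (a b : Ω) : 𝐋(g • a, g • b) = g ⋆ 𝐋(a, b) := by
  rw [stab_smul, stab_smul, ← map_conj_inf, gen_conj]

theorem L1_conj (g : G) (a : Ω) : 𝐋(g • a) = g ⋆ 𝐋(a) := by rw [stab_smul, gen_conj]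

theorem nn_conj (g : G) (a b : Ω) : 𝐧(g • a, g • b) = 𝐧(a, b) := by
  rw [stab_smul, stab_smul, ← map_conj_inf, nu_conj]

theorem nn_conj' {g : G} {a : Ω} (hg : g ∈ 𝐒(a)) (b : Ω) : 𝐧(a, g • b) = 𝐧(a, b) := by
  have : g • a = a := hg
  rw [← nn_conj g a b, this]

theorem gen_L_inf (a : Ω) (H : Subgroup G) : gen p (𝐋(a) ⊓ H) = gen p (𝐒(a) ⊓ H) :=
  le_antisymm (gen_mono (inf_le_inf_right _ (gen_le _))) (le_gen (gen_gen _)
    (le_inf (gen_mono inf_le_left) ((gen_le _).trans inf_le_right)))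

theorem nu_L_inf (a b : Ω) : nu p (𝐋(a) ⊓ 𝐒(b)) = 𝐧(a, b) := by
  rw [← nu_gen, gen_L_inf, nu_gen]

theorem L2_le_left (a b : Ω) : 𝐋(a, b) ≤ 𝐋(a) := gen_mono inf_le_left

theorem L2_le_right (a b : Ω) : 𝐋(a, b) ≤ 𝐋(b) := gen_mono inf_le_right

/-- the normal subgroup attached to a point of type `A` -/
structure Str (p : ℕ) (a : Ω) (J : Subgroup G) : Prop where
  gen_eq : gen p J = J
  le : J ≤ gen p (stabilizer G a)
  norm : gen p (stabilizer G a) ≤ 𝐍(J)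
  idx : ∀ S : Sylow p G, (S : Subgroup G) ≤ stabilizer G a → J.relIndex S = p

theorem Str.conj {a : Ω} {J : Subgroup G} (h : Str p a J) (g : G) : Str p (g • a) (g ⋆ J) := by
  refine ⟨by rw [gen_conj, h.gen_eq], L1_conj (p := p) g a ▸ map_mono h.le, ?_, fun S hS => ?_⟩
  · rw [L1_conj, normalizer_map_conj]
    exact map_mono h.norm
  · have e : (S : Subgroup G) = g ⋆ ((g⁻¹ • S : Sylow p G) : Subgroup G) := by
      rw [← sylow_coe_smul_eq_map, smul_inv_smul]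
    rw [e, relIndex_map_map_of_injective _ _ (MulAut.conj g).injective]
    exact h.idx _ (conj_le_stab.1 (e ▸ hS))

theorem Str.inf_eq {a x : Ω} {J : Subgroup G} (h : Str p a J) {S : Sylow p G}
    (h1 : (S : Subgroup G) ≤ 𝐒(a)) (h2 : J ≤ 𝐒(x)) (h3 : ¬ (S : Subgroup G) ≤ 𝐒(x)) :
    (S : Subgroup G) ⊓ J = (S : Subgroup G) ⊓ 𝐒(x) := by
  have h4 := h.idx S h1
  rw [← inf_relIndex_right, inf_comm, ← relIndex_mul_relIndex _ ((S : Subgroup G) ⊓ 𝐒(x)) _
    (inf_le_inf_left _ h2) inf_le_left, inf_comm _ 𝐒(x), inf_relIndex_right] at h4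
  obtain ⟨k, hk⟩ := dvd_relIndex S.isPGroup' h3
  rw [hk, mul_left_comm] at h4
  have h5 := Nat.eq_of_mul_eq_mul_left hp.out.pos (h4.trans (mul_one p).symm)
  exact le_antisymm (inf_le_inf_left _ h2)
    ((inf_comm _ _).le.trans (relIndex_eq_one.1 (Nat.eq_one_of_mul_eq_one_right h5)))

theorem Str.le_of {a a' x : Ω} {J J' : Subgroup G} (h : Str p a J) (h' : Str p a' J')
    {S : Sylow p G} (h1 : (S : Subgroup G) ≤ 𝐒(a)) (h1' : (S : Subgroup G) ≤ 𝐒(a'))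
    (h2 : J ≤ 𝐒(x)) (h2' : J' ≤ 𝐒(x)) (h3 : ¬ (S : Subgroup G) ≤ 𝐒(x)) (h4 : J' ≤ 𝐒(a)) :
    J' ≤ J := by
  refine h'.gen_eq.ge.trans (gen_le_of_normal ((IsSylowIn.of_sylow S
    (syl_le_gen h1')).inf_of_le_normalizer h'.le ((syl_le_gen h1').trans h'.norm)) ?_
    ((le_gen h'.gen_eq h4).trans h.norm))
  rw [h'.inf_eq h1' h2' h3, ← h.inf_eq h1 h2 h3]
  exact inf_le_right

theorem TA.exists_str {a c : Ω} (h : TA p 𝐋(a) c) :
    ∃ J : Subgroup G, Str p a J ∧ ∀ x ∈ orb 𝐋(a) c, J ≤ 𝐒(x) := by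
  obtain ⟨M, -, h2, h3, h4⟩ := h
  set T := orb 𝐋(a) ((1 : G) : G ⧸ M) with hT
  have h5 : T.ncard < 2 * p := by rwa [hT, ncard_orb, stab_base]
  set K := 𝐋(a) ⊓ fixingSubgroup G T
  have k1 : 𝐋(a) ≤ 𝐍(gen p K) :=
    (le_normalizer_inf le_normalizer (le_norm_fixing (inv_orb _ _))).trans (norm_le_norm_gen K)
  have k2 : ∀ t ∈ T, K ≤ stabilizer G t := le_fixing.1 inf_le_right
  refine ⟨gen p K, ⟨gen_gen _, (gen_le _).trans inf_le_left, k1, fun S hS => ?_⟩, fun x hx => ?_⟩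
  · have hS' := syl_le_gen hS
    obtain ⟨s, hs, h6⟩ := exists_moved (gen_gen _) hS' (b := ((1 : G) : G ⧸ M))
      (by rw [stab_base]; exact h2.not_ge)
    have i1 : Inv (S : Subgroup G) T := (inv_orb _ _).mono hS'
    have h7 : orb (S : Subgroup G) s = T \ Fx (S : Subgroup G) :=
      trans_of_lt (gen_of_isPGroup S.isPGroup') (i1.diff (inv_Fx le_normalizer))
        ((Set.ncard_le_ncard Set.diff_subset).trans_lt h5) (fun t ht => ht.2) ⟨hs, h6⟩
    have h8 : (orb (S : Subgroup G) s).ncard = p := by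
      have e1 := ncard_eq S.isPGroup' i1
      have e2 := mm_pos S.isPGroup' i1 hs h6
      have e3 : mm p (S : Subgroup G) T < 2 := lt_of_mul_lt_mul_left (a := p) (by omega)
        (Nat.zero_le _)
      rw [h7, ← mul_mm S.isPGroup' i1, show mm p (S : Subgroup G) T = 1 by omega, mul_one]
    have h9 : IsPGroup p ↥((S : Subgroup G) ⊓ stabilizer G s) := S.isPGroup'.to_inf_left
    have h10 : (S : Subgroup G) ⊓ stabilizer G s ≤ K := le_inf (inf_le_left.trans hS')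
      (le_fixing.2 fun t ht => by
        by_contra e
        have e1 : t ∈ orb (S : Subgroup G) s := h7 ▸ ⟨ht, fun e' => e (inf_le_left.trans e')⟩
        have e2 := Set.ncard_lt_ncard (Set.diff_subset.ssubset_of_ne fun e' :
          orb (S : Subgroup G) s \ {s} = _ => (e'.ge (mem_orb_self _ s)).2 rfl)
        have e3 := Set.ncard_le_ncard ((((inv_orb _ s).mono inf_le_left).diff (inv_singleton
          (inf_le_right : (S : Subgroup G) ⊓ stabilizer G s ≤ _))).orb_subset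
          ⟨e1, fun e' => e (e' ▸ inf_le_right)⟩)
        have e4 := le_ncard_orb (gen_of_isPGroup h9) e
        omega)
    refine Eq.trans ?_ h8
    rw [ncard_orb, ← inf_relIndex_right, ← inf_relIndex_right (stabilizer G s)]
    congr 1
    exact le_antisymm (inf_le_inf_right _ ((gen_le _).trans (k2 s hs)))
      (le_inf ((inf_comm _ _).le.trans (le_gen (gen_of_isPGroup h9) h10)) inf_le_right)
  · refine (inv_Fx k1).orb_subset (le_trans (gen_mono ?_) h4) hx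
    exact (k2 _ (mem_orb_self _ _)).trans (stab_base M).le

variable (p G Ω) in
/-- the primitive configuration -/
structure Ctx0 : Prop where
  trans : ∀ a b : Ω, ∃ g : G, g • a = b
  faith : ∀ g : G, (∀ a : Ω, g • a = a) → g = 1
  sup : ∀ a b : Ω, a ≠ b → gen p (stabilizer G a) ⊔ gen p (stabilizer G b) = ⊤
  syl : ∀ a : Ω, ∃ S : Sylow p G, (S : Subgroup G) ≤ stabilizer G a
  ihT : ∀ (S : Sylow p G) (Y H : Subgroup G), gen p Y = Y → Y ≠ ⊤ → (S : Subgroup G) ≤ Y →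
    ¬ Y ≤ H → (2 * p - 1) * nu p (Y ⊓ H) ≤ (p - 1) * nu p Y
  ihA : ∀ (S : Sylow p G) (Y : Subgroup G) (b : Ω), gen p Y = Y → Y ≠ ⊤ → (S : Subgroup G) ≤ Y →
    ¬ Y ≤ stabilizer G b →
    TA p Y b ∨ TN p (fx (S : Subgroup G) (orb Y b)) (mm p (S : Subgroup G) (orb Y b))

variable (p G Ω) in
/-- the minimal configuration -/
structure Ctx : Prop extends Ctx0 G p Ω where
  two : ∀ S : Sylow p G, 2 ≤ mm p (S : Subgroup G) (Set.univ : Set Ω)
  notN : ∀ S : Sylow p G,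
    ¬ TN p (fx (S : Subgroup G) (Set.univ : Set Ω)) (mm p (S : Subgroup G) (Set.univ : Set Ω))

namespace Ctx0

variable (h : Ctx0 G p Ω)
include h

theorem moves {a b : Ω} (hab : a ≠ b) : ¬ 𝐋(a) ≤ 𝐒(b) := fun e => by
  obtain ⟨g, hg⟩ := h.trans b a
  exact hab (hg.symm.trans (((h.sup a b hab).ge.trans (sup_le e (gen_le _))) (mem_top g)))

theorem ne_top {a b : Ω} (hab : a ≠ b) {Y : Subgroup G} (hY : Y ≤ 𝐋(a)) : Y ≠ ⊤ := fun e => by
  obtain ⟨g, hg⟩ := h.trans a b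
  exact hab (Eq.symm (hg.symm.trans ((e.ge.trans (hY.trans (gen_le _))) (mem_top g))))

theorem eq_univ {a b : Ω} (hab : a ≠ b) {A : Set Ω} (h1 : Inv 𝐋(a) A) (h2 : Inv 𝐋(b) A) {x : Ω}
    (hx : x ∈ A) (y : Ω) : y ∈ A := by
  obtain ⟨g, rfl⟩ := h.trans x y
  exact h1.sup h2 g ((h.sup a b hab).ge (mem_top g)) x hx

theorem eq_bot {a b : Ω} (hab : a ≠ b) {D : Subgroup G} (h1 : 𝐋(a) ≤ 𝐍(D)) (h2 : 𝐋(b) ≤ 𝐍(D))
    {x : Ω} (hx : D ≤ 𝐒(x)) : D = ⊥ :=
  eq_bot_iff.2 fun g hg => h.faith g fun y => h.eq_univ hab (inv_Fx h1) (inv_Fx h2) hx y hg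

theorem nu_L (a b : Ω) : nu p 𝐋(a) = nu p 𝐋(b) := by
  obtain ⟨g, rfl⟩ := h.trans a b
  rw [L1_conj, nu_conj]

theorem not_dvd (S : Sylow p G) (a : Ω) : ¬ p ∣ fx (S : Subgroup G) (Set.univ : Set Ω) := by
  obtain ⟨T, hT⟩ := h.syl a
  have e : orb (⊤ : Subgroup G) a = Set.univ :=
    Set.eq_univ_of_forall fun b => (h.trans a b).imp fun g hg => ⟨mem_top g, hg⟩
  exact e ▸ not_dvd_fx le_top le_top hT

variable {S : Sylow p G} {a : Ω} (hS : (S : Subgroup G) ≤ stabilizer G a)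
include hS

theorem m_pos {b : Ω} (hab : a ≠ b) : 0 < mm p (S : Subgroup G) (orb 𝐋(a) b) :=
  mm_orb_pos (gen_gen _) (syl_le_gen hS) (h.moves hab)

theorem tee {A : Set Ω} (hA : Inv 𝐋(a) A) (ha : a ∉ A) :
    fx (S : Subgroup G) A + mm p (S : Subgroup G) A ≤ p * mm p (S : Subgroup G) A := by
  refine additive S.isPGroup' (syl_le_gen hS) (fun f m => f + m ≤ p * m) (by simp)
    (fun a b c d h1 h2 => by rw [mul_add]; omega) hA fun b hb => ?_
  have hab : a ≠ b := fun e => ha (e ▸ hb)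
  exact (slope_one hp.out.pos).1 ((ratio_of_slope (syl_le_gen hS) b).1
    (h.ihT S _ _ (gen_gen _) (h.ne_top hab le_rfl) (syl_le_gen hS) (h.moves hab)))

end Ctx0

namespace Ctx

variable (h : Ctx G p Ω)
include h

variable {S : Sylow p G} {a : Ω} (hS : (S : Subgroup G) ≤ stabilizer G a)
include hS

theorem budget {A : Set Ω} (hA : Inv 𝐋(a) A) (ha : a ∉ A) :
    p * mm p (S : Subgroup G) A + 1 ≤ fx (S : Subgroup G) A + mm p (S : Subgroup G) A + p := by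
  have i1 : Inv 𝐋(a) ({a}ᶜ : Set Ω) := (inv_singleton (gen_le _)).compl
  have h1 := bound_of_not_TN' hp.out.pos (h.notN S) (h.not_dvd S a)
  have h2 := h.tee hS (i1.diff hA) fun e => e.1 rfl
  have h3 : A ⊆ {a}ᶜ := Set.subset_compl_singleton_iff.2 ha
  rw [fx_univ hS, mm_univ S.isPGroup' hS, fx_diff _ h3, mm_diff S.isPGroup' h3
    (hA.mono (syl_le_gen hS)) (i1.mono (syl_le_gen hS)), mul_add] at h1
  omega

omit hS in
theorem not_mem_orb {b : Ω} (hab : a ≠ b) {Y : Subgroup G} (hY : Y ≤ 𝐒(a)) : a ∉ orb Y b :=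
  fun e => hab ((inv_singleton hY).orb_subset rfl (orb_symm e)).symm

theorem budget2 {b c : Ω} (hab : a ≠ b) (hac : a ≠ c) (hbc : c ∉ orb 𝐋(a) b) :
    p * mm p (S : Subgroup G) (orb 𝐋(a) b) + p * mm p (S : Subgroup G) (orb 𝐋(a) c) + 1 ≤
      fx (S : Subgroup G) (orb 𝐋(a) b) + fx (S : Subgroup G) (orb 𝐋(a) c) +
      (mm p (S : Subgroup G) (orb 𝐋(a) b) + mm p (S : Subgroup G) (orb 𝐋(a) c)) + p := by
  have := h.budget hS ((inv_orb _ b).union (inv_orb _ c))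
    (fun e => e.elim (h.not_mem_orb hab (gen_le _)) (h.not_mem_orb hac (gen_le _)))
  rwa [fx_union _ (orb_disjoint hbc), mm_union S.isPGroup' (orb_disjoint hbc)
    ((inv_orb _ b).mono (syl_le_gen hS)) ((inv_orb _ c).mono (syl_le_gen hS)), mul_add] at this

theorem cross' {S' : Sylow p G} {a' : Ω} (hS' : (S' : Subgroup G) ≤ 𝐒(a')) {b b' : Ω}
    (e : 𝐧(a, b) = 𝐧(a', b')) :
    fx (S : Subgroup G) (orb 𝐋(a) b) * mm p (S' : Subgroup G) (orb 𝐋(a') b') =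
      fx (S' : Subgroup G) (orb 𝐋(a') b') * mm p (S : Subgroup G) (orb 𝐋(a) b) :=
  cross (syl_le_gen hS) (syl_le_gen hS') (h.nu_L a a') (by rw [nu_L_inf, nu_L_inf, e])

theorem exists_TA : ∃ c, a ≠ c ∧ TA p 𝐋(a) c := by
  by_contra e
  push Not at e
  have := additive S.isPGroup' (syl_le_gen hS) (fun f m => m = 0 ∧ f = 0 ∨ TN p f m) (by simp)
    (by
      rintro a b c d (⟨rfl, rfl⟩ | ⟨w, h1, h2⟩) (⟨rfl, rfl⟩ | ⟨w', h3, h4⟩)
      · simp
      · exact Or.inr ⟨w', by simpa, by simpa⟩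
      · exact Or.inr ⟨w, h1, h2⟩
      · exact Or.inr ⟨w + w', by rw [mul_add]; omega, by rw [mul_add, mul_add]; omega⟩)
    (inv_singleton (gen_le 𝐒(a))).compl fun b hb => Or.inr ((h.ihA S _ b (gen_gen _)
      (h.ne_top (Ne.symm hb) le_rfl) (syl_le_gen hS) (h.moves (Ne.symm hb))).resolve_left
      (e b (Ne.symm hb)))
  have h1 := h.two S
  have h2 := h.not_dvd S a
  have h3 := h.notN S
  rw [mm_univ S.isPGroup' hS] at h1 h3
  rw [fx_univ hS] at h2 h3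
  rcases this with h4 | ⟨w, h4, h5⟩
  · omega
  · exact h3 ⟨w, (Nat.succ_le_of_lt h4).lt_of_ne fun e => h2 ⟨w, e⟩, h5⟩

theorem small {b : Ω} (hab : a ≠ b) {Y : Subgroup G} (hY : gen p Y = Y) (h1 : 𝐋(a, b) ≤ Y)
    (h2 : Y ≤ 𝐋(a)) (h3 : ¬ 𝐋(a) ≤ Y) (h4 : ¬ Y ≤ 𝐒(b)) (hb : (S : Subgroup G) ≤ 𝐒(b)) :
    (orb 𝐋(a) b).ncard < 2 * p := by
  have e1 := h.ihT S _ _ (gen_gen _) (h.ne_top hab le_rfl) (syl_le_gen hS) h3
  have e2 := h.ihT S _ _ hY (h.ne_top hab h2) ((syl_le_gen (le_inf hS hb)).trans h1) h4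
  have e3 : nu p (𝐋(a) ⊓ 𝐒(b)) ≤ nu p (Y ⊓ 𝐒(b)) := by
    rw [nu_L_inf, ← nu_gen]
    exact nu_mono (le_inf h1 ((gen_le _).trans inf_le_right))
  rw [inf_eq_right.2 h2] at e1
  rw [ncard_eq S.isPGroup' ((inv_orb _ b).mono (syl_le_gen hS))]
  refine small_arith hp.out.two_le ((ratio_of_slope (syl_le_gen hS) b).1 ?_)
    (h.budget hS (inv_orb _ b) (h.not_mem_orb hab (gen_le _)))
  calc _ ≤ (2 * p - 1) * ((p - 1) * nu p Y) := by
        rw [mul_assoc]
        exact Nat.mul_le_mul_left _ ((Nat.mul_le_mul_left _ e3).trans e2)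
    _ ≤ _ := by
        rw [mul_left_comm, mul_assoc]
        exact Nat.mul_le_mul_left _ e1

omit hS in
theorem pair (a b : Ω) : ∃ S : Sylow p G, (S : Subgroup G) ≤ 𝐒(a) ∧ (S : Subgroup G) ≤ 𝐒(b) := by
  by_contra e
  have h0 : 𝐧(a, b) = 0 := by
    by_contra e'
    obtain ⟨S, hS⟩ := exists_of_nu_pos (Nat.pos_of_ne_zero e')
    exact e ⟨S, le_inf_iff.1 hS⟩
  clear e
  set Adj : Ω → Set Ω := fun x => {y | 𝐧(x, y) = 0} with hAdj
  have a1 : ∀ x, Inv 𝐒(x) (Adj x) := fun x g hg y hy => (nn_conj' hg y).trans hy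
  have a2 : ∀ (x : Ω) (S : Sylow p G), (S : Subgroup G) ≤ 𝐒(x) → ∀ y ∈ Adj x,
      ¬ (S : Subgroup G) ≤ 𝐒(y) := fun x S hS y hy e => (nu_pos (le_inf hS e)).ne' hy
  have a3 : ∀ x, x ∉ Adj x := fun x hx => (h.syl x).elim fun S hS => a2 x S hS x hx hS
  have a4 : ∀ x, (Adj x).ncard = p := fun x => by
    obtain ⟨S, hS⟩ := h.syl x
    obtain ⟨g, hg⟩ := h.trans a x
    have b1 : g • b ∈ Adj x := hg ▸ (nn_conj g a b).trans h0
    have b2 := h.budget hS ((a1 x).mono (gen_le _)) (a3 x)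
    have b3 := mm_pos S.isPGroup' ((a1 x).mono hS) b1 (a2 x S hS _ b1)
    have b4 : fx (S : Subgroup G) (Adj x) = 0 := by
      rw [fx, Set.ncard_eq_zero (Set.toFinite _), Set.eq_empty_iff_forall_notMem]
      exact fun y hy => a2 x S hS y hy.1 hy.2
    have b5 : mm p (S : Subgroup G) (Adj x) = 1 := by
      have := hp.out.two_le
      by_contra e
      nlinarith [Nat.lt_of_le_of_ne b3 (Ne.symm e)]
    rw [ncard_eq S.isPGroup' ((a1 x).mono hS), b4, b5, zero_add, mul_one]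
  obtain ⟨S, hS⟩ := h.syl a
  have a5 : ∀ x ∈ (Fx (S : Subgroup G) : Set Ω), ∀ y ∈ Adj x, orb (S : Subgroup G) y = Adj x :=
    fun x hx y hy => trans_of_lt (gen_of_isPGroup S.isPGroup') ((a1 x).mono hx)
      (by rw [a4]; have := hp.out.pos; omega) (a2 x S hx) hy
  have a6 := card_family (Set.univ ∩ Fx (S : Subgroup G)) (Set.univ \ Fx (S : Subgroup G)) Adj
    (fun x hx y hy => ⟨trivial, a2 x S hx.2 y hy⟩) (fun x _ => (a4 x).ge)
    fun x hx x' hx' y hy hy' => by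
      by_contra e
      have e1 := (a5 x hx.2 y hy).symm.trans (a5 x' hx'.2 y hy')
      exact a3 x (h.eq_univ e ((a1 x).mono (gen_le _)) (e1 ▸ (a1 x').mono (gen_le _)) hy x)
  rw [← mul_mm S.isPGroup' (inv_univ _), mul_comm] at a6
  have a7 : fx (S : Subgroup G) (Set.univ : Set Ω) ≤ _ := Nat.le_of_mul_le_mul_left a6 hp.out.pos
  have a8 := bound_of_not_TN' hp.out.pos (h.notN S) (h.not_dvd S a)
  have a9 := h.two S
  have hp2 : p = 2 := by
    have := hp.out.two_le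
    by_contra e
    nlinarith [Nat.lt_of_le_of_ne this (Ne.symm e)]
  have c1 : ∀ x, ∀ y ∈ Adj x, 𝐒(x) ≤ 𝐍(𝐒(x) ⊓ 𝐒(y)) := fun x y hy g hg =>
    mem_normalizer_of_conj_mem fun k hk => by
      refine mem_inf.2 ⟨mul_mem (mul_mem hg (mem_inf.1 hk).1) (inv_mem hg), ?_⟩
      have d1 := a1 x _ (inv_mem hg) y hy
      have d2 := a1 x _ (mem_inf.1 hk).1 _ d1
      have d3 : k • y = y := (mem_inf.1 hk).2
      have d4 : k • g⁻¹ • y = g⁻¹ • y := by
        by_cases e : g⁻¹ • y = y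
        · rw [e, d3]
        · have e' : k • g⁻¹ • y ≠ y := fun e' => e (MulAction.injective k (e'.trans d3.symm))
          have d5 : (Adj x \ {y}).ncard ≤ 1 := by
            rw [Set.ncard_diff_singleton_of_mem hy, a4, hp2]
          exact (Set.ncard_le_one (Set.toFinite _)).1 d5 _ ⟨d2, e'⟩ _ ⟨d1, e⟩
      change _ • y = y
      rw [mul_smul, mul_smul, d4, smul_inv_smul]
  have hab : a ≠ b := fun e => a3 a (e ▸ h0 : 𝐧(a, a) = 0)
  have c2 : 𝐒(a) ⊓ 𝐒(b) = ⊥ := h.eq_bot hab ((gen_le _).trans (c1 a b h0))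
    ((gen_le _).trans (inf_comm 𝐒(b) 𝐒(a) ▸ c1 b a (by rwa [inf_comm] at h0))) inf_le_left
  have c3 : ∀ x, Nat.card 𝐒(x) ≤ p := fun x => by
    obtain ⟨g, rfl⟩ := h.trans a x
    rw [stab_smul, card_map_conj, ← card_inf_mul_relIndex 𝐒(b), inf_comm, c2, card_bot, one_mul,
      ← ncard_orb, ← a4 a]
    exact Set.ncard_le_ncard ((a1 a).orb_subset h0)
  have c4 : ∀ x ∈ (Fx (S : Subgroup G) : Set Ω), 𝐒(x) ≤ 𝐒(a) := fun x hx =>
    (eq_of_le_of_card_le hx ((c3 x).trans (Nat.le_of_dvd Nat.card_pos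
      ((dvd_relIndex S.isPGroup' (a2 a S hS b h0)).trans (relIndex_dvd_card _ _))))).ge.trans hS
  have c5 : fx (S : Subgroup G) (Set.univ : Set Ω) ≤ 1 := by
    refine (Set.ncard_le_ncard fun x hx => ?_).trans_eq (Set.ncard_singleton a)
    by_contra e
    exact h.moves e ((gen_le _).trans (c4 x hx.2))
  subst hp2
  omega

end Ctx

end CfsgLib.SylNum
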