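import Cfsg.Agent.Lib.SylNum.MainA

/-!
# The minimal configuration, second part: Sylow subgroups have prime order
-/

set_option autoImplicit false
set_option linter.unusedSectionVars false

namespace CfsgLib.SylNum

open Subgroup MulAction Cfsg CfsgLib.H1 CfsgLib.Cop
open scoped Pointwise

theorem b3_arith {p f m f' m' w : ℕ} (hp : 2 ≤ p) (h1 : f ≤ m) (h2 : f < p * w)
    (h3 : p * w + m ≤ p * m) (h4 : f' + m' < p * m')
    (h5 : p * m + p * m' + 1 ≤ f + f' + (m + m') + p) : False := by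
  have e1 : 1 ≤ w := Nat.pos_of_ne_zero fun e => by simp [e] at h2
  have e2 : p ≤ p * w := Nat.le_mul_of_pos_right p e1
  have e3 : 2 ≤ m := by
    by_contra e
    have : m = 0 ∨ m = 1 := by omega
    rcases this with rfl | rfl <;> omega
  rcases hp.eq_or_lt with rfl | hp3
  · omega
  · obtain ⟨q, rfl⟩ := Nat.exists_eq_add_of_le hp
    nlinarith

variable {G : Type*} [Group G] [Finite G] {p : ℕ} [hp : Fact p.Prime]
  {Ω : Type*} [MulAction G Ω] [Finite Ω]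

local notation "𝐒(" a ")" => stabilizer G a
local notation "𝐋(" a ")" => gen p (stabilizer G a)
local notation "𝐋(" a ", " b ")" => gen p (stabilizer G a ⊓ stabilizer G b)
local notation "𝐧(" a ", " b ")" => nu p (stabilizer G a ⊓ stabilizer G b)

namespace Ctx

variable (h : Ctx G p Ω)
include h

theorem le_sup_L2 {a b : Ω} (hab : a ≠ b) {J : Subgroup G} (h1 : gen p J = J) (h2 : J ≤ 𝐋(a))
    (h3 : 𝐋(a) ≤ 𝐍(J)) (h4 : ¬ J ≤ 𝐒(b)) : 𝐋(a) ≤ J ⊔ 𝐋(a, b) := by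
  by_contra e
  obtain ⟨S, hS, hb⟩ := h.pair a b
  have e1 := h.small hS hab (gen_sup h1 (gen_gen _)) le_sup_right (sup_le h2 (L2_le_left a b)) e
    (fun e' => h4 (le_sup_left.trans e')) hb
  have e2 : 𝐋(a) ≤ (𝐋(a) ⊓ 𝐒(b)) ⊔ J := by
    by_contra e'
    refine h4 (le_sup_right.trans ((eq_of_relIndex_lt (gen_gen _) le_sup_left
      (sup_le inf_le_left h2) e' ?_).trans inf_le_right))
    rwa [inf_comm, inf_relIndex_right, ← ncard_orb]
  refine e ((gen_gen _).ge.trans (gen_le_of_normal' (syl_le_gen hS)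
    ((syl_le_gen (le_inf hS hb)).trans le_sup_right) (e2.trans (sup_le (le_normalizer_sup
      (inf_le_left.trans h3) ((inf_le_inf_right _ (gen_le _)).trans (le_norm_gen _)))
      (le_sup_left.trans le_normalizer)))))

theorem tournament {a b c : Ω} {J J' : Subgroup G} (h1 : Str p a J) (h2 : Str p b J')
    (h3 : J ≤ 𝐒(c)) (h4 : J' ≤ 𝐒(c)) : J ≤ 𝐒(b) ∨ J' ≤ 𝐒(a) := by
  by_contra e
  push Not at e
  have hab : a ≠ b := fun e' => e.1 (e' ▸ h1.le.trans (gen_le _))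
  have e1 : 𝐋(a, b) ≤ 𝐍(J ⊔ J') :=
    le_normalizer_sup ((L2_le_left a b).trans h1.norm) ((L2_le_right a b).trans h2.norm)
  have e2 := h.eq_bot hab ((h.le_sup_L2 hab h1.gen_eq h1.le h1.norm e.1).trans
    (sup_le (le_sup_left.trans le_normalizer) e1))
    ((h.le_sup_L2 hab.symm h2.gen_eq h2.le h2.norm e.2).trans
    (sup_le (le_sup_right.trans le_normalizer) (inf_comm 𝐒(a) 𝐒(b) ▸ e1))) (sup_le h3 h4)
  exact e.1 ((le_sup_left.trans e2.le).trans bot_le)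

theorem str_eq_bot {a c : Ω} (hac : a ≠ c) {J : Subgroup G} (h1 : Str p a J)
    (h2 : ∀ x ∈ orb 𝐋(a) c, J ≤ 𝐒(x)) : J = ⊥ := by
  by_contra hJ
  obtain ⟨S, hSa, hSc⟩ := h.pair a c
  set D := orb 𝐋(c) a with hD
  have hJc := h2 c (mem_orb_self _ c)
  have iD : Inv (S : Subgroup G) D := (inv_orb _ a).mono (syl_le_gen hSc)
  have : Nonempty G := ⟨1⟩
  choose! g hg hg' using fun (b : Ω) (hb : b ∈ D) => hb
  have s1 : ∀ b ∈ D, Str p b (g b ⋆ J) := fun b hb => by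
    have := h1.conj (g b)
    rwa [hg' b hb] at this
  have s2 : ∀ b ∈ D, g b ⋆ J ≤ 𝐒(c) := fun b hb => by
    have e : g b • c = c := gen_le _ (hg b hb)
    exact e ▸ conj_le_stab.2 hJc
  have s3 : ∀ b ∈ D, {x ∈ D | g b ⋆ J ≤ 𝐒(x)}.ncard = {x ∈ D | J ≤ 𝐒(x)}.ncard := fun b hb =>
    (ncard_eq_of_smul (g b) (A := {x ∈ D | J ≤ 𝐒(x)}) (B := {x ∈ D | g b ⋆ J ≤ 𝐒(x)})
      fun x => and_congr ⟨inv_orb _ a _ (hg b hb) x,
      (inv_orb _ a).of_smul (hg b hb)⟩ conj_le_stab.symm).symm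
  set t := {x ∈ D | J ≤ 𝐒(x)}.ncard with ht
  have d0 : 0 < D.ncard := (Set.ncard_pos (Set.toFinite _)).2 ⟨a, mem_orb_self _ a⟩
  have s4 : D.ncard ≤ 2 * t := by
    by_contra e
    have := dc_le D D (fun x b => g b ⋆ J ≤ 𝐒(x)) (m := t + 1) (fun x hx => ?_)
      fun b hb => (s3 b hb).le
    · exact absurd (Nat.le_of_mul_le_mul_left this d0) (by omega)
    · have e1 : D ⊆ {b ∈ D | g b ⋆ J ≤ 𝐒(x)} ∪ {b ∈ D | g x ⋆ J ≤ 𝐒(b)} := fun b hb =>
        (h.tournament (s1 b hb) (s1 x hx) (s2 b hb) (s2 x hx)).imp (⟨hb, ·⟩) (⟨hb, ·⟩)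
      have e2 := (Set.ncard_le_ncard e1).trans (Set.ncard_union_le _ _)
      rw [s3 x hx] at e2
      omega
  have t1 := h.tee hSc (inv_orb _ a) (h.not_mem_orb hac.symm (gen_le _))
  have t2 := h.m_pos hSc hac.symm
  have t3 := ncard_eq S.isPGroup' iD
  rw [← hD] at t1 t2
  have s5 : ∀ K : Subgroup G, {x ∈ D | K ≤ 𝐒(x)}.ncard = t →
      ∃ x ∈ D, K ≤ 𝐒(x) ∧ ¬ (S : Subgroup G) ≤ 𝐒(x) := fun K hK => by
    by_contra e
    push Not at e
    have : t ≤ fx (S : Subgroup G) D := hK ▸ Set.ncard_le_ncard fun x hx => ⟨hx.1, e x hx.1 hx.2⟩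
    omega
  have s6 : ∀ J', Str p c J' → ¬ ∀ x ∈ D, J' ≤ 𝐒(x) := fun J' hJ' e => by
    obtain ⟨x, hx, x1, x2⟩ := s5 J rfl
    have e1 : J' = J := le_antisymm (h1.le_of hJ' hSa hSc x1 (e x hx) x2 (e a (mem_orb_self _ a)))
      (hJ'.le_of h1 hSc hSa (e x hx) x1 x2 hJc)
    exact hJ (h.eq_bot hac h1.norm (e1 ▸ hJ'.norm) hJc)
  have s7 := card_family (D ∩ Fx (S : Subgroup G)) (D \ Fx (S : Subgroup G))
    (fun b => {x ∈ D | g b ⋆ J ≤ 𝐒(x)} \ Fx (S : Subgroup G)) (m := p)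
    (fun b _ x hx => ⟨hx.1.1, hx.2⟩) (fun b hb => ?_) fun b hb b' hb' x hx hx' => ?_
  rotate_left
  · obtain ⟨x, hx, x1, x2⟩ := s5 _ (s3 b hb.1)
    refine Nat.le_of_dvd ((Set.ncard_pos (Set.toFinite _)).2 ⟨x, ⟨hx, x1⟩, x2⟩)
      (dvd_moved S.isPGroup' (iD.inter (inv_Fx ((syl_le_gen hb.2).trans (s1 b hb.1).norm))))
  · by_contra e
    have e1 : g b ⋆ J = g b' ⋆ J := by
      rcases h.tournament (s1 b hb.1) (s1 b' hb'.1) (s2 b hb.1) (s2 b' hb'.1) with e1 | e1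
      · exact eq_of_le_of_card_le ((s1 b' hb'.1).le_of (s1 b hb.1) hb'.2 hb.2 hx'.1.2 hx.1.2 hx.2 e1)
          (by rw [card_map_conj, card_map_conj])
      · exact (eq_of_le_of_card_le ((s1 b hb.1).le_of (s1 b' hb'.1) hb.2 hb'.2 hx.1.2 hx'.1.2 hx.2
          e1) (by rw [card_map_conj, card_map_conj])).symm
    have e2 := h.eq_bot e (s1 b hb.1).norm (e1 ▸ (s1 b' hb'.1).norm) (s2 b hb.1)
    exact hJ ((map_eq_bot_iff_of_injective _ (MulAut.conj (g b)).injective).1 e2)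
  rw [← mul_mm S.isPGroup' iD, mul_comm] at s7
  have s8 : fx (S : Subgroup G) D ≤ _ := Nat.le_of_mul_le_mul_left s7 hp.out.pos
  obtain ⟨w, w1, w2⟩ := (h.ihA S _ a (gen_gen _) (h.ne_top hac.symm le_rfl) (syl_le_gen hSc)
    (h.moves hac.symm)).resolve_left fun e => e.exists_str.elim fun J' hJ' => s6 J' hJ'.1 hJ'.2
  obtain ⟨u, hu⟩ := h.trans a c
  have u1 : c ≠ u • c := fun e => hac (MulAction.injective u (hu.trans e))
  have u2 : u • c ∉ D := fun e => s6 (u ⋆ J) (hu ▸ h1.conj u) fun x hx => by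
    rw [hD, ← orb_eq e, ← smul_inv_smul u x] at hx
    nth_rewrite 1 [← hu] at hx
    rw [L1_conj, smul_mem_orb_conj] at hx
    rw [← smul_inv_smul u x]
    exact conj_le_stab.2 (h2 _ hx)
  have u3 : 𝐧(c, a) = 𝐧(c, u • c) := by
    rw [inf_comm, ← nn_conj u a c, hu]
  exact b3_arith hp.out.two_le s8 w1 w2 (strict_of_cross (h.cross' hSc hSc u3)
    ((Nat.add_lt_add_right w1 _).trans_le w2) (h.m_pos hSc u1)) (h.budget2 hSc hac.symm u1 u2)

theorem card_syl (S : Sylow p G) (a : Ω) : Nat.card (S : Subgroup G) = p := by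
  obtain ⟨T, hT⟩ := h.syl a
  obtain ⟨c, hc, h1⟩ := h.exists_TA hT
  obtain ⟨J, h2, h3⟩ := h1.exists_str
  have := h2.idx T hT
  rw [h.str_eq_bot hc h2 h3, relIndex_bot_left] at this
  exact ((IsSylowIn.sylow_top S).card_eq (IsSylowIn.sylow_top T)).trans this

theorem flat_two (h2 : p = 2) {S : Sylow p G} {a b : Ω} (hS : (S : Subgroup G) ≤ 𝐒(a))
    (hab : a ≠ b) : p * mm p (S : Subgroup G) (orb 𝐋(a) b) ≤
      fx (S : Subgroup G) (orb 𝐋(a) b) + mm p (S : Subgroup G) (orb 𝐋(a) b) := by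
  by_contra e
  obtain ⟨g, hg⟩ := h.trans a b
  obtain ⟨T, hTa, hTb⟩ := h.pair a b
  have u1 : b ≠ g • b := fun e => hab (MulAction.injective g (hg.trans e))
  have e1 := strict_of_cross (h.cross' hS hTb (b := b) (b' := a) (by rw [inf_comm])) (not_le.1 e)
    (h.m_pos hTb hab.symm)
  have e2 := strict_of_cross (h.cross' hS hTb (b := b) (b' := g • b)
    (by rw [← nn_conj g a b, hg])) (not_le.1 e) (h.m_pos hTb u1)
  have e3 : a ∈ orb 𝐋(b) (g • b) := by
    by_contra e'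
    have := h.budget2 hTb u1 hab.symm e'
    omega
  obtain ⟨l, hl, e4⟩ := e3
  have e5 : l • b = b := gen_le _ hl
  have e6 : orb (stabilizer G ({a, b} : Set Ω)) a = {a, b} := by
    refine Set.Subset.antisymm ?_ ?_
    · rintro _ ⟨y, hy, rfl⟩
      exact (show y • ({a, b} : Set Ω) = {a, b} from hy) ▸
        Set.smul_mem_smul_set (Set.mem_insert a _)
    · rintro _ (rfl | rfl)
      · exact mem_orb_self _ _
      · refine ⟨l * g, ?_, by rw [mul_smul, hg, e5]⟩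
        rw [mem_stabilizer_iff, Set.smul_set_insert, Set.smul_set_singleton, mul_smul, mul_smul, hg,
          e5, e4, Set.pair_comm]
  refine not_dvd_relIndex (Y := stabilizer G ({a, b} : Set Ω)) hTa (fun y hy => ?_) ?_
  · have f1 : y • a = a := hTa hy
    have f2 : y • b = b := hTb hy
    rw [mem_stabilizer_iff, Set.smul_set_insert, Set.smul_set_singleton, f1, f2]
  · rw [← ncard_orb, e6, Set.ncard_pair hab, h2]

theorem three_le (a : Ω) : 3 ≤ p := by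
  by_contra e
  have h2 : p = 2 := by have := hp.out.two_le; omega
  obtain ⟨S, hS⟩ := h.syl a
  have h3 := relIndex_cent_le (h.card_syl S a)
  have h4 := relIndex_ne_zero' 𝐂((S : Subgroup G)) 𝐍((S : Subgroup G))
  obtain ⟨-, b2⟩ := burnside' (IsSylowIn.sylow_top S)
    (inf_le_right.trans (relIndex_eq_one.1 (by omega)))
  set R := piCoreOf {p}ᶜ (⊤ : Subgroup G)
  have r1 : (S : Subgroup G) ≤ 𝐍(R) := le_top.trans (le_normalizer_piCoreOf ⊤)
  have r2 : orb R a = Set.univ := Set.eq_univ_of_forall fun b => by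
    obtain ⟨g, rfl⟩ := h.trans a b
    obtain ⟨r, hr, s, hs, rfl⟩ := (mem_sup_iff_of_le_normalizer' r1).1 (b2.ge (mem_top g))
    have : s • a = a := hS hs
    exact ⟨r, hr, by rw [mul_smul, this]⟩
  have h5 := h.two S
  have h6 := cop_orbit S.isPGroup' ((Nat.Prime.coprime_iff_not_dvd hp.out).1
    (piCoreOf_compl_coprime p ⊤).symm) r1 hS (by rw [r2]; omega)
  have h7 := additive S.isPGroup' (syl_le_gen hS) (fun f m => p * m ≤ f + m) (by simp)
    (fun a b c d h1 h2 => by rw [mul_add]; omega) (inv_singleton (gen_le 𝐒(a))).compl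
    fun b hb => h.flat_two h2 hS (Ne.symm hb)
  rw [r2, fx_univ hS, mm_univ S.isPGroup' hS] at h6
  subst h2
  omega

end Ctx

end CfsgLib.SylNum
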