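import Cfsg.Agent.Lib.SylNum.MainB

/-!
# The minimal configuration, third part: the contradiction
-/

set_option autoImplicit false
set_option linter.unusedSectionVars false

namespace CfsgLib.SylNum

open Subgroup MulAction Cfsg CfsgLib.H1 CfsgLib.Cop

theorem c1_arith {p x y s m n : ℕ} (h1 : x ≤ s) (h2 : n < 2 * p) (h3 : p ≤ y) (h4 : 0 < m)
    (h5 : s + p * m < 2 * p) (h : x * n = y * (s + p * m)) : False := by
  have e1 : p ≤ p * m := Nat.le_mul_of_pos_right p h4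
  have e2 : x * n ≤ s * n := Nat.mul_le_mul_right n h1
  have e3 : p * (s + p) ≤ y * (s + p * m) := Nat.mul_le_mul h3 (by omega)
  have e4 : s * (n + 1) ≤ s * (2 * p) := Nat.mul_le_mul_left s h2
  have e5 : p * (s + 1) ≤ p * p := Nat.mul_le_mul_left p (by omega)
  nlinarith

theorem half_arith {p f m : ℕ} (hp : 2 ≤ p) (h1 : 2 * f + m ≤ p * m)
    (h2 : p * m + 1 ≤ f + m + p) : m ≤ 2 := by
  by_contra e
  obtain ⟨q, rfl⟩ := Nat.exists_eq_add_of_le hp
  nlinarith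

variable {G : Type*} [Group G] [Finite G] {p : ℕ} [hp : Fact p.Prime]
  {Ω : Type*} [MulAction G Ω] [Finite Ω]

local notation "𝐒(" a ")" => stabilizer G a
local notation "𝐋(" a ")" => gen p (stabilizer G a)
local notation "𝐋(" a ", " b ")" => gen p (stabilizer G a ⊓ stabilizer G b)
local notation "𝐧(" a ", " b ")" => nu p (stabilizer G a ⊓ stabilizer G b)

/-- the data of a point of type `A` -/
structure DA (p : ℕ) (a c : Ω) (M : Subgroup G) : Prop where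
  le : gen p (stabilizer G a) ⊓ stabilizer G c ≤ M
  lt : M < gen p (stabilizer G a)
  idx : M.relIndex (gen p (stabilizer G a)) < 2 * p
  fix : gen p M ≤ stabilizer G c

variable (G p) in
/-- `b` lies over `c` -/
def Over (a c b : Ω) : Prop := ∃ l ∈ 𝐋(a), 𝐋(a, b) = l ⋆ 𝐋(a, c)

theorem L2_smul {a : Ω} {l : G} (hl : l ∈ 𝐒(a)) (b : Ω) : 𝐋(a, l • b) = l ⋆ 𝐋(a, b) := by
  have : l • a = a := hl
  rw [← L2_conj, this]

theorem Over.symm {a c b : Ω} (h : Over G p a c b) : Over G p a b c := by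
  obtain ⟨l, hl, e⟩ := h
  exact ⟨l⁻¹, inv_mem hl, by rw [e, map_conj_inv_map_conj]⟩

theorem Over.nn {a c b : Ω} (h : Over G p a c b) : 𝐧(a, b) = 𝐧(a, c) := by
  obtain ⟨l, -, e⟩ := h
  rw [← nu_gen, e, nu_conj, nu_gen]

theorem inv_over (a c : Ω) : Inv 𝐋(a) {b | Over G p a c b} := by
  rintro y hy b ⟨l, hl, e⟩
  exact ⟨y * l, mul_mem hy hl, by rw [L2_smul (gen_le _ hy), e, map_conj_mul]⟩

namespace DA

variable {a c : Ω} {M : Subgroup G} (d : DA p a c M)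
include d

theorem ncard_lt : (orb 𝐋(a) ((1 : G) : G ⧸ M)).ncard < 2 * p := by
  rw [ncard_orb, stab_base]
  exact d.idx

theorem gen_eq {l : G} (hl : l ∈ 𝐋(a)) :
    gen p (𝐋(a) ⊓ stabilizer G (l • ((1 : G) : G ⧸ M))) = l ⋆ 𝐋(a, c) := by
  rw [stab_smul, stab_base, inf_eq_right.2, gen_conj]
  · congr 1
    exact le_antisymm (le_gen (gen_gen _) (le_inf ((gen_le _).trans (d.lt.le.trans (gen_le _)))
      d.fix)) (gen_L_inf (p := p) a 𝐒(c) ▸ gen_mono d.le)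
  · rw [← map_conj_eq_of_mem_normalizer (le_normalizer hl)]
    exact map_mono d.lt.le

theorem moves {s : G ⧸ M} (hs : s ∈ orb 𝐋(a) ((1 : G) : G ⧸ M)) : ¬ 𝐋(a) ≤ stabilizer G s :=
  fun e => d.lt.not_ge (le_of_le_of_eq ((inv_Fx le_normalizer).orb_subset e (orb_symm hs))
    (stab_base M))

end DA

namespace Ctx

variable (h : Ctx G p Ω) {a c : Ω} {M : Subgroup G} (d : DA p a c M)
include h

include d in
theorem over_of_fix {b : Ω} (hab : a ≠ b) {s : G ⧸ M} (hs : s ∈ orb 𝐋(a) ((1 : G) : G ⧸ M))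
    (h1 : 𝐋(a, b) ≤ stabilizer G s) : Over G p a c b := by
  have h2 : 𝐋(a, b) ≤ gen p (𝐋(a) ⊓ stabilizer G s) :=
    le_gen (gen_gen _) (le_inf (L2_le_left a b) h1)
  have h3 : gen p (𝐋(a) ⊓ stabilizer G s) ≤ 𝐋(a) := (gen_le _).trans inf_le_left
  by_cases h4 : gen p (𝐋(a) ⊓ stabilizer G s) ≤ 𝐒(b)
  · obtain ⟨l, hl, rfl⟩ := hs
    exact ⟨l, hl, (le_antisymm h2 (le_gen (gen_gen _) (le_inf (h3.trans (gen_le _)) h4))).trans
      (d.gen_eq hl)⟩
  exfalso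
  obtain ⟨S, hS, hb⟩ := h.pair a b
  have hS' := syl_le_gen hS
  have e1 := h.small hS hab (gen_gen _) h2 h3
    (fun e => d.moves hs (e.trans ((gen_le _).trans inf_le_right))) h4 hb
  have e2 := orb_mul_orb 𝐋(a) b s
  have e3 := d.ncard_lt
  rw [← orb_eq hs] at e3
  rw [ncard_eq S.isPGroup' ((inv_orb _ s).mono hS')] at e2 e3
  refine c1_arith ?_ e1 ((le_ncard_orb (gen_gen _) h4).trans
    (Set.ncard_le_ncard (orb_mono (gen_le _) b))) (mm_orb_pos (gen_gen _) hS' (d.moves hs)) e3 e2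
  refine Set.ncard_le_ncard fun x hx => ⟨orb_mono inf_le_left s hx, ?_⟩
  exact (syl_le_gen (le_inf hS hb)).trans ((inv_Fx ((inf_le_inf_right _ (gen_le _)).trans
    (le_norm_gen _))).orb_subset h1 hx)

include d in
theorem nn_le {b : Ω} (hab : a ≠ b) (h1 : ¬ Over G p a c b) :
    (3 * p - 1) * 𝐧(a, b) ≤ (p - 1) * nu p 𝐋(a) := by
  obtain ⟨S, hS, hb⟩ := h.pair a b
  rw [← nu_gen (𝐒(a) ⊓ 𝐒(b))]
  exact desc (h.three_le a) (h.card_syl S a) _ (gen_gen _) (gen_gen _) (syl_le_gen (le_inf hS hb))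
    (L2_le_left a b) (fun e => h.moves hab (e.trans ((gen_le _).trans inf_le_right))) (inv_orb _ _)
    d.ncard_lt ⟨_, mem_orb_self _ _⟩ fun t ht e => h1 (h.over_of_fix d hab ht e)

omit h in
theorem half {S : Sylow p G} (hS : (S : Subgroup G) ≤ 𝐒(a)) {A : Set Ω} (hA : Inv 𝐋(a) A)
    (h1 : ∀ b ∈ A, (3 * p - 1) * 𝐧(a, b) ≤ (p - 1) * nu p 𝐋(a)) :
    2 * fx (S : Subgroup G) A + mm p (S : Subgroup G) A ≤ p * mm p (S : Subgroup G) A :=
  additive S.isPGroup' (syl_le_gen hS) (fun f m => 2 * f + m ≤ p * m) (by simp)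
    (fun a b c d h1 h2 => by rw [mul_add, mul_add]; omega) hA fun b hb =>
      (slope_half hp.out.pos).1 ((ratio_of_slope (syl_le_gen hS) b).1 (by
        rw [nu_L_inf]; exact h1 b hb))

include d in
theorem not_all_over (hac : a ≠ c) : ¬ ∀ b, a ≠ b → Over G p a c b := by
  intro h1
  obtain ⟨S, hS, hSc⟩ := h.pair a c
  have hS' := syl_le_gen hS
  have l1 : ∀ x y : Ω, x ≠ y → ∃ g : G, 𝐋(x, y) = g ⋆ 𝐋(a, c) := fun x y hxy => by
    obtain ⟨g, rfl⟩ := h.trans a x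
    obtain ⟨l, -, e⟩ := h1 (g⁻¹ • y) fun e => hxy (by rw [e, smul_inv_smul])
    exact ⟨g * l, by rw [map_conj_mul, ← e, ← L2_conj, smul_inv_smul]⟩
  set φ := (Fx 𝐋(a, c) : Set Ω).ncard with hφ
  have l2 : ∀ g : G, (Fx (g ⋆ 𝐋(a, c)) : Set Ω).ncard = φ := fun g =>
    (ncard_eq_of_smul g (A := Fx 𝐋(a, c)) (B := Fx (g ⋆ 𝐋(a, c))) fun x => conj_le_stab.symm).symm
  have l3 : ∀ x y u v : Ω, x ≠ y → u ≠ v → 𝐋(x, y) ≤ 𝐒(u) → 𝐋(x, y) ≤ 𝐒(v) →
      𝐋(x, y) = 𝐋(u, v) := fun x y u v hxy huv e1 e2 => by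
    refine eq_of_le_of_card_le (le_gen (gen_gen _) (le_inf e1 e2)) ?_
    obtain ⟨g, hg⟩ := l1 x y hxy
    obtain ⟨g', hg'⟩ := l1 u v huv
    rw [hg, hg', card_map_conj, card_map_conj]
  have l4 : ∀ x y : Ω, 𝐋(x, y) ≤ 𝐒(x) := fun x y => (gen_le _).trans inf_le_left
  have l5 : ∀ x y : Ω, 𝐋(x, y) ≤ 𝐒(y) := fun x y => (gen_le _).trans inf_le_right
  obtain ⟨b, -, hb⟩ := exists_moved (gen_gen _) hS' (h.moves hac)
  have l6 : ∀ x : Ω, (S : Subgroup G) ≤ 𝐒(x) → x ≠ b := fun x hx e => hb (e ▸ hx)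
  have l7 : ∀ x y : Ω, (S : Subgroup G) ≤ 𝐒(x) → (S : Subgroup G) ≤ 𝐒(y) → 𝐋(x, b) ≤ 𝐒(y) →
      x = y := fun x y hx hy e => by
    by_contra e'
    exact hb ((syl_le_gen (le_inf hx hy)).trans
      ((l3 x b x y (l6 x hx) e' (l4 x b) e).ge.trans (l5 x b)))
  have l8 := card_family (Set.univ ∩ Fx (S : Subgroup G))
    ((Set.univ \ Fx (S : Subgroup G)) \ orb (S : Subgroup G) b)
    (fun x => Fx 𝐋(x, b) \ {x, b}) (m := φ - 2) (fun x hx y hy => ?_) (fun x hx => ?_)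
    fun x hx x' hx' y hy hy' => ?_
  rotate_left
  · refine ⟨⟨trivial, fun e => hy.2 (Or.inl (l7 x y hx.2 e hy.1).symm)⟩, ?_⟩
    rintro ⟨s, hs, rfl⟩
    obtain ⟨T, t1, t2⟩ := h.pair x b
    have e1 : s ∈ 𝐍(𝐋(x, b)) := mem_normalizer_of_map_conj_eq (by
      rw [← L2_smul (hx.2 hs)]
      exact (l3 x b x _ (l6 x hx.2) (fun e => hy.2 (Or.inl e.symm)) (l4 x b) hy.1).symm)
    obtain ⟨k, hk⟩ := IsPGroup.iff_orderOf.1 S.isPGroup' ⟨s, hs⟩
    have e2 := syl_le_gen (le_inf t1 t2)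
    exact hy.2 (Or.inr (l5 x b (gen_le_of_normal' (e2.trans le_normalizer) e2 le_rfl
      (mem_gen e1 (by rw [← hk, orderOf_mk])))))
  · obtain ⟨g, hg⟩ := l1 x b (l6 x hx.2)
    rw [Set.ncard_diff (Set.pair_subset (l4 x b) (l5 x b)), Set.ncard_pair (l6 x hx.2), hg, l2]
  · have e : y ≠ b := fun e => hy.2 (Or.inr e)
    refine l7 x x' hx.2 hx'.2 ?_
    rw [l3 x b y b (l6 x hx.2) e hy.1 (l5 x b), ← l3 x' b y b (l6 x' hx'.2) e hy'.1 (l5 x' b)]
    exact l4 x' b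
  set T := orb 𝐋(a) ((1 : G) : G ⧸ M) with hT
  have l9 := dc_le (Set.univ \ Fx (S : Subgroup G) : Set Ω) (T \ Fx (S : Subgroup G))
    (fun y s => gen p (𝐋(a) ⊓ stabilizer G s) ≤ 𝐒(y) ∧ y ≠ a) (m := 1) (n := φ - 1)
    (fun y hy => ?_) fun s hs => ?_
  rotate_left
  · have e : a ≠ y := fun e => hy.2 (e ▸ hS)
    obtain ⟨l, hl, e1⟩ := h1 y e
    have e2 : gen p (𝐋(a) ⊓ stabilizer G (l • ((1 : G) : G ⧸ M))) ≤ 𝐒(y) := by
      rw [d.gen_eq hl, ← e1]
      exact l5 a y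
    exact (Set.ncard_pos (Set.toFinite _)).2 ⟨_, ⟨smul_mem_orb hl _,
      fun e3 => hy.2 ((syl_le_gen (le_inf hS' e3)).trans e2)⟩, e2, e.symm⟩
  · obtain ⟨⟨l, hl, rfl⟩, -⟩ := hs
    rw [← l2 l, ← d.gen_eq hl, ← Set.ncard_diff_singleton_of_mem (a := a)
      ((gen_le _).trans (inf_le_left.trans (gen_le _)))]
    exact Set.ncard_le_ncard fun y hy => hy.2
  have iT : Inv (S : Subgroup G) T := (inv_orb _ _).mono hS'
  have e1 := ncard_eq S.isPGroup' iT
  have e2 : T.ncard < 2 * p := d.ncard_lt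
  have e3 : mm p (S : Subgroup G) T < 2 := lt_of_mul_lt_mul_left (a := p) (by omega) (Nat.zero_le _)
  rw [Set.ncard_diff ((inv_univ _).diff (inv_Fx le_normalizer) |>.orb_subset ⟨trivial, hb⟩),
    ← mul_mm S.isPGroup' (inv_univ _)] at l8
  rw [← mul_mm S.isPGroup' (inv_univ _), ← mul_mm S.isPGroup' iT, mul_one, mul_assoc] at l9
  have e4 := (Nat.le_of_mul_le_mul_left l9 hp.out.pos).trans
    (Nat.mul_le_mul_right _ (Nat.le_of_lt_succ e3))
  have e5 := le_ncard_orb (gen_of_isPGroup S.isPGroup') hb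
  have e6 := h.two S
  have e7 : fx (S : Subgroup G) (Set.univ : Set Ω) * (φ - 2) ≤ p * (φ - 2) := by
    refine le_trans l8 ?_
    have := Nat.mul_le_mul_left p (show mm p (S : Subgroup G) (Set.univ : Set Ω) ≤ φ - 2 + 1 by
      omega)
    rw [mul_add] at this
    omega
  have e8 := (Nat.le_of_mul_le_mul_right e7 (by omega)).lt_of_ne
    fun e => h.not_dvd S a e.symm.dvd
  refine h.notN S ⟨1, by omega, ?_⟩
  have := hp.out.two_le
  nlinarith

theorem false : False := by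
  obtain ⟨S₀⟩ : Nonempty (Sylow p G) := inferInstance
  obtain ⟨a, -⟩ : (Set.univ \ Fx (S₀ : Subgroup G) : Set Ω).Nonempty := by
    rw [← Set.ncard_pos (Set.toFinite _), ← mul_mm S₀.isPGroup' (inv_univ _)]
    exact mul_pos hp.out.pos (lt_of_lt_of_le two_pos (h.two S₀))
  obtain ⟨S₁, hS₁⟩ := h.syl a
  obtain ⟨c, hac, M, d1, d2, d3, d4⟩ := h.exists_TA hS₁
  have d : DA p a c M := ⟨d1, d2, d3, d4⟩
  obtain ⟨S, hS, hSc⟩ := h.pair a c
  have hS' := syl_le_gen hS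
  have h3 := h.three_le a
  have i0 : Inv 𝐋(a) ({a}ᶜ : Set Ω) := (inv_singleton (gen_le _)).compl
  set N : Set Ω := {a}ᶜ \ {b | Over G p a c b} with hN
  have iN : Inv 𝐋(a) N := i0.diff (inv_over a c)
  have aN : a ∉ N := fun e => e.1 rfl
  have n1 : ∀ b ∈ N, (3 * p - 1) * 𝐧(a, b) ≤ (p - 1) * nu p 𝐋(a) := fun b hb =>
    h.nn_le d (Ne.symm hb.1) hb.2
  obtain ⟨b, hb⟩ : N.Nonempty := by
    by_contra e
    exact h.not_all_over d hac fun b hb => by_contra fun e' => e ⟨b, hb.symm, e'⟩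
  have hab : a ≠ b := Ne.symm hb.1
  have n2 := half hS iN n1
  have n3 := h.budget hS iN aN
  have n4 := half_arith hp.out.two_le n2 n3
  have n5 := (h.m_pos hS hab).trans_le (mm_mono _ (iN.orb_subset hb))
  have n6 := bound_of_not_TN' hp.out.pos (h.notN S) (h.not_dvd S a)
  have n7 := h.two S
  have n8 := h.not_dvd S a
  rw [mm_univ S.isPGroup' hS] at n6 n7
  rw [fx_univ hS] at n6 n8
  rcases n4.eq_or_lt with n4 | n4
  swap
  · have e1 : (orb 𝐋(a) b).ncard < 2 * p := by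
      refine (Set.ncard_le_ncard (iN.orb_subset hb)).trans_lt ?_
      rw [ncard_eq S.isPGroup' (iN.mono hS')]
      rw [show mm p (S : Subgroup G) N = 1 by omega] at n2 ⊢
      omega
    have d' : DA p a b (𝐋(a) ⊓ 𝐒(b)) := ⟨le_rfl, lt_of_le_of_ne inf_le_left
      fun e => h.moves hab (inf_eq_left.1 e), by rwa [inf_comm, inf_relIndex_right, ← ncard_orb],
      (gen_le _).trans inf_le_right⟩
    have e2 := h.nn_le d' hac fun e => hb.2 e.symm
    have e3 := half hS i0 fun x hx => by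
      by_cases e : Over G p a c x
      · rwa [e.nn]
      · exact n1 x ⟨hx, e⟩
    have e4 := half_arith hp.out.two_le e3 (by omega)
    rw [le_antisymm e4 n7] at e3 n6
    exact n8 (Eq.dvd (by omega))
  have cN : orb 𝐋(a) c ⊆ {a}ᶜ \ N := (i0.diff iN).orb_subset
    ⟨hac.symm, fun e => e.2 ⟨1, one_mem _, (map_conj_one _).symm⟩⟩
  have m1 := h.tee hS (inv_orb _ c) (h.not_mem_orb hac (gen_le _))
  have m2 := h.tee hS ((i0.diff iN).diff (inv_orb _ c)) fun e => e.1.1 rfl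
  have sN : N ⊆ {a}ᶜ := Set.diff_subset
  rw [fx_diff _ sN, mm_diff S.isPGroup' sN (iN.mono hS') (i0.mono hS'), fx_diff _ cN,
    mm_diff S.isPGroup' cN ((inv_orb _ c).mono hS')
    ((i0.diff iN).mono hS'), mul_add, mul_add, n4] at n6
  rw [n4] at n2
  have m3 : fx (S : Subgroup G) N + 1 = p := by omega
  have m4 : fx (S : Subgroup G) (orb 𝐋(a) c) + mm p (S : Subgroup G) (orb 𝐋(a) c) =
      p * mm p (S : Subgroup G) (orb 𝐋(a) c) := by omega
  have m5 := h.m_pos hS hac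
  set N' : Ω → Set Ω := fun x => {y | y ≠ x ∧ 𝐧(x, y) ≠ 𝐧(a, c)} with hN'
  have p1 : N' a = N := Set.ext fun x => ⟨fun hx => ⟨hx.1, fun e => hx.2 e.nn⟩, fun hx =>
    ⟨hx.1, fun e => by
      have e1 := eq_of_cross (h.cross' hS hS e.symm) m4 m5
      have e2 := half hS (inv_orb _ x) fun y hy => n1 y (iN.orb_subset hx hy)
      have e3 := h.m_pos hS (Ne.symm hx.1)
      nlinarith⟩⟩
  have p2 : ∀ (g : G) x y, y ∈ N' x ↔ g • y ∈ N' (g • x) := fun g x y =>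
    and_congr (MulAction.injective g).ne_iff.symm (by rw [nn_conj])
  have p3 : ∀ x, Inv 𝐒(x) (N' x) := fun x g hg y hy => by
    have e : g • x = x := hg
    exact e ▸ (p2 g x y).1 hy
  obtain ⟨S', t1, t2⟩ := h.pair a b
  have p4 : fx (S' : Subgroup G) (N' b) + 1 = p := by
    obtain ⟨g, hg⟩ := h.trans a b
    obtain ⟨l, hl, e⟩ := exists_smul_eq_of_le (S := g • S) (T := S') (Y := 𝐒(b))
      (by rw [sylow_coe_smul_eq_map, ← hg]; exact conj_le_stab.2 hS) t2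
    have e1 : (l * g) • a = b := by rw [mul_smul, hg]; exact hl
    rw [← e, ← mul_smul, sylow_coe_smul_eq_map, fx_conj (l * g) _ (A := N' a)
      (fun x => e1 ▸ p2 (l * g) a x), p1, m3]
  have p5 : a ∈ N' b := ⟨hab, by rw [inf_comm]; exact (p1.ge hb).2⟩
  have hZ := syl_le_gen (le_inf t1 t2)
  have p6 : insert b (N' b) ⊆ insert a (N' a) := by
    rintro x (rfl | hx)
    · exact Or.inr (p1.ge hb)
    by_contra e
    have e1 : x ≠ a := fun e' => e (Or.inl e')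
    obtain ⟨l, hl, e2⟩ : Over G p a c x := by_contra fun e' => e (Or.inr (p1.ge ⟨e1, e'⟩))
    set s := l • ((1 : G) : G ⧸ M)
    have hs : s ∈ orb 𝐋(a) ((1 : G) : G ⧸ M) := smul_mem_orb hl _
    have e3 : gen p (𝐋(a) ⊓ stabilizer G s) = 𝐋(a, x) := (d.gen_eq hl).trans e2.symm
    have e4 : orb 𝐋(a, b) s = orb 𝐋(a) s := (trans_of_lt (gen_gen _)
      ((inv_orb _ _).mono (L2_le_left a b)) d.ncard_lt
      (fun t ht e' => hb.2 (h.over_of_fix d hab ht e')) hs).trans (orb_eq hs).symm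
    have e5 := eq_of_cross (cross hS' (syl_le_gen t1) (b := c) (b' := s) rfl
      (by rw [nu_L_inf, ← nu_gen (𝐋(a) ⊓ _), e3, e2, nu_conj, nu_gen])) m4 m5
    have e6 := mm_orb_pos (gen_gen _) (syl_le_gen t1) (d.moves hs)
    rw [← e4] at e5 e6
    have e7 := eq_of_cross (cross hZ hZ (b := s) (b' := x) rfl (by
      unfold nu
      congr 1
      ext T
      simp only [Set.mem_setOf_eq, le_inf_iff]
      refine and_congr_right fun hT => ⟨fun e' => ?_, fun e' => ?_⟩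
      · exact (syl_le_gen (le_inf (hT.trans (L2_le_left a b)) e')).trans
          (e3.le.trans ((gen_le _).trans inf_le_right))
      · exact (syl_le_gen (le_inf (hT.trans ((gen_le _).trans inf_le_left)) e')).trans
          (e3.ge.trans ((gen_le _).trans inf_le_right)))) e5 e6
    have e8 : orb 𝐋(a, b) x ⊆ N' b \ {a} := (((p3 b).mono ((gen_le _).trans inf_le_right)).diff
      (inv_singleton ((gen_le _).trans inf_le_left))).orb_subset ⟨hx, e1⟩
    have e9 := fx_mono (S' : Subgroup G) e8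
    rw [fx_diff _ (Set.singleton_subset_iff.2 p5), fx_singleton t1] at p4
    have e10 := ncard_eq S'.isPGroup' ((inv_orb _ x).mono hZ)
    have e11 : 0 < (orb 𝐋(a, b) x).ncard := (Set.ncard_pos (Set.toFinite _)).2 ⟨x, mem_orb_self _ x⟩
    rcases Nat.eq_zero_or_pos (mm p (S' : Subgroup G) (orb 𝐋(a, b) x)) with e12 | e12
    · rw [e12] at e7 e10
      omega
    · obtain ⟨q, rfl⟩ : ∃ q, p = q + 1 := ⟨p - 1, by omega⟩
      nlinarith
  have p7 : insert b (N' b) = insert a (N' a) := by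
    obtain ⟨g, hg⟩ := h.trans a b
    refine Set.eq_of_subset_of_ncard_le p6 (ncard_eq_of_smul g fun x => ?_).le
    rw [← hg]
    exact or_congr (MulAction.injective g).eq_iff.symm (p2 g a x)
  have p8 : ∀ x, Inv 𝐋(x) (insert x (N' x)) := fun x =>
    ((inv_singleton le_rfl).union (p3 x)).mono (gen_le _)
  exact (h.eq_univ hab (p8 a) (p7 ▸ p8 b) (Set.mem_insert a _) c).elim hac.symm fun e => e.2 rfl

end Ctx

end CfsgLib.SylNum
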