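import Cfsg.Agent.Lib.SylNum.MainC

/-!
# The fixed point ratio of a Sylow subgroup
-/

set_option autoImplicit false
set_option linter.unusedSectionVars false

namespace CfsgLib.SylNum

open Subgroup MulAction Cfsg CfsgLib.H1 CfsgLib.Cop

universe u

section
variable {G : Type*} [Group G] [Finite G] {p : ℕ} [hp : Fact p.Prime]
  {Ω : Type*} [MulAction G Ω] [Finite Ω]

/-- the inductive claim for one orbit -/
def Good (p : ℕ) (S Y : Subgroup G) (b : Ω) : Prop :=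
  fx S (orb Y b) + mm p S (orb Y b) ≤ p * mm p S (orb Y b) ∧
    (TA p Y b ∨ TN p (fx S (orb Y b)) (mm p S (orb Y b)))

theorem TA_of_small {Y : Subgroup G} {b : Ω} (h1 : ¬ Y ≤ stabilizer G b)
    (h2 : (orb Y b).ncard < 2 * p) : TA p Y b :=
  ⟨Y ⊓ stabilizer G b, le_rfl, lt_of_le_of_ne inf_le_left fun e => h1 (inf_eq_left.1 e),
    by rwa [inf_comm, inf_relIndex_right, ← ncard_orb], (gen_le _).trans inf_le_right⟩

theorem Ctx0.main (h : Ctx0 G p Ω) {a b : Ω} (hab : a ≠ b) (S : Sylow p G) :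
    fx (S : Subgroup G) (Set.univ : Set Ω) + mm p (S : Subgroup G) (Set.univ : Set Ω) ≤
      p * mm p (S : Subgroup G) (Set.univ : Set Ω) ∧ ((Set.univ : Set Ω).ncard < 2 * p ∨
      TN p (fx (S : Subgroup G) (Set.univ : Set Ω)) (mm p (S : Subgroup G) (Set.univ : Set Ω))) := by
  have e1 : ∀ T : Sylow p G, fx (T : Subgroup G) (Set.univ : Set Ω) =
      fx (S : Subgroup G) (Set.univ : Set Ω) ∧ mm p (T : Subgroup G) (Set.univ : Set Ω) =
      mm p (S : Subgroup G) (Set.univ : Set Ω) := fun T => by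
    obtain ⟨g, rfl⟩ := exists_smul_eq G S T
    rw [sylow_coe_smul_eq_map]
    exact ⟨fx_conj g _ fun _ => Iff.rfl, mm_conj g _ fun _ => Iff.rfl⟩
  by_cases h2 : 2 ≤ mm p (S : Subgroup G) (Set.univ : Set Ω)
  · obtain ⟨w, h3, h4⟩ : TN p (fx (S : Subgroup G) (Set.univ : Set Ω))
        (mm p (S : Subgroup G) (Set.univ : Set Ω)) := by_contra fun e =>
      Ctx.false ⟨h, fun T => (e1 T).2 ▸ h2, fun T => (e1 T).1 ▸ (e1 T).2 ▸ e⟩
    exact ⟨by omega, Or.inr ⟨w, h3, h4⟩⟩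
  obtain ⟨T, hT⟩ := h.syl a
  have h3 := (h.m_pos hT hab).trans_le (mm_mono _ (Set.subset_univ _))
  have h4 := h.tee hT (inv_singleton (gen_le _)).compl fun e => e rfl
  have h5 := h.not_dvd S a
  rw [ncard_eq S.isPGroup' (inv_univ _)]
  rw [← mm_univ T.isPGroup' hT, (e1 T).2] at h4
  have h6 := fx_univ hT
  rw [(e1 T).1] at h6
  rw [(e1 T).2] at h3
  rw [show mm p (S : Subgroup G) (Set.univ : Set Ω) = 1 by omega] at h4 ⊢
  have h7 : fx (S : Subgroup G) (Set.univ : Set Ω) ≠ p := fun e => h5 e.symm.dvd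
  exact ⟨by omega, Or.inl (by omega)⟩

end

variable {p : ℕ} [hp : Fact p.Prime]

/-- the inductive claim for a group -/
def Top (p : ℕ) (G : Type u) [Group G] : Prop :=
  ∀ (Ω : Type u) [MulAction G Ω] [Finite Ω] (S : Sylow p G) (b : Ω), gen p (⊤ : Subgroup G) = ⊤ →
    ¬ ⊤ ≤ stabilizer G b → Good p (S : Subgroup G) ⊤ b

variable {G : Type u} [Group G] [Finite G]

theorem Top.amb {Y : Subgroup G} (h : Top p Y) {Ω : Type u} [MulAction G Ω] [Finite Ω]
    {S : Sylow p G} {b : Ω} (h1 : gen p Y = Y) (h2 : (S : Subgroup G) ≤ Y)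
    (h3 : ¬ Y ≤ stabilizer G b) : Good p (S : Subgroup G) Y b := by
  have k : ∀ M : Subgroup Y, gen p (M.map Y.subtype) ≤ (gen p M).map Y.subtype := fun M =>
    gen_le_iff.2 (by
      rintro _ ⟨x, hx, rfl⟩ k hk
      exact mem_map_of_mem _ (mem_gen hx ((orderOf_coe x).symm.trans hk)))
  have e0 : gen p (⊤ : Subgroup Y) = ⊤ := by
    refine map_injective Y.subtype_injective (le_antisymm (map_mono le_top) (le_trans ?_ (k ⊤)))
    rw [← MonoidHom.range_eq_map, range_subtype, h1]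
  obtain ⟨h4, h5⟩ := h Ω (S.subtype h2) b e0 fun e => h3 fun y hy => e (mem_top ⟨y, hy⟩)
  have e1 : orb (⊤ : Subgroup Y) b = orb Y b := Set.ext fun c =>
    ⟨fun ⟨y, _, e⟩ => ⟨y, y.2, e⟩, fun ⟨y, hy, e⟩ => ⟨⟨y, hy⟩, mem_top _, e⟩⟩
  have e2 : (Fx ((S.subtype h2 : Sylow p Y) : Subgroup Y) : Set Ω) = Fx (S : Subgroup G) :=
    Set.ext fun c => ⟨fun e y hy => e (x := ⟨y, h2 hy⟩) hy, fun e y hy => e (x := y) hy⟩
  simp only [fx, mm, e1, e2] at h4 h5
  refine ⟨h4, h5.imp_left ?_⟩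
  rintro ⟨M, m1, m2, m3, m4⟩
  refine ⟨M.map Y.subtype, fun y hy => ⟨⟨y, hy.1⟩, m1 ⟨mem_top _, hy.2⟩, rfl⟩,
    lt_of_le_of_ne (map_subtype_le M) fun e => m2.not_ge fun y _ => ?_, ?_, (k M).trans ?_⟩
  · obtain ⟨x, hx, e'⟩ := e.ge y.2
    exact Subtype.ext e' ▸ hx
  · rwa [relIndex, subgroupOf, comap_map_eq_self_of_injective Y.subtype_injective,
      ← relIndex_top_right]
  · rintro _ ⟨x, hx, rfl⟩
    exact m4 hx

theorem Good.ratio {S : Sylow p G} {Y H : Subgroup G} (h2 : (S : Subgroup G) ≤ Y)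
    (h : Good p (S : Subgroup G) Y ((1 : G) : G ⧸ H)) :
    (2 * p - 1) * nu p (Y ⊓ H) ≤ (p - 1) * nu p Y := by
  have := (ratio_of_slope h2 ((1 : G) : G ⧸ H)).2 ((slope_one hp.out.pos).2 h.1)
  rwa [stab_base] at this

theorem main' (ih : ∀ (Y : Type u) [Group Y] [Finite Y], Nat.card Y < Nat.card G → Top p Y)
    {Ω : Type u} [MulAction G Ω] [Finite Ω] (h1 : ∀ a b : Ω, ∃ g : G, g • a = b)
    (h2 : ∀ a b : Ω, a ≠ b → gen p (stabilizer G a) ⊔ gen p (stabilizer G b) = ⊤)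
    (h3 : ∀ a : Ω, ∃ S : Sylow p G, (S : Subgroup G) ≤ stabilizer G a) {a b : Ω} (hab : a ≠ b)
    (S : Sylow p G) :
    fx (S : Subgroup G) (Set.univ : Set Ω) + mm p (S : Subgroup G) (Set.univ : Set Ω) ≤
      p * mm p (S : Subgroup G) (Set.univ : Set Ω) ∧ ((Set.univ : Set Ω).ncard < 2 * p ∨
      TN p (fx (S : Subgroup G) (Set.univ : Set Ω)) (mm p (S : Subgroup G) (Set.univ : Set Ω))) := by
  set φ := (toPermHom G Ω).rangeRestrict
  have hφ : Function.Surjective φ := MonoidHom.rangeRestrict_surjective _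
  have k1 : ∀ (K : Subgroup G) (a : Ω), K.map φ ≤ stabilizer _ a ↔ K ≤ stabilizer G a :=
    fun K a => ⟨fun e y hy => e (mem_map_of_mem φ hy), by
      rintro e _ ⟨y, hy, rfl⟩
      exact e hy⟩
  have k2 : ∀ Y : Subgroup (toPermHom G Ω).range, Y ≠ ⊤ → Top p Y := fun Y hY =>
    ih Y ((card_lt_of_ne_top hY).trans_le (Nat.card_le_card_of_surjective φ hφ))
  have c : Ctx0 (toPermHom G Ω).range p Ω := ⟨fun a b => (h1 a b).elim fun g hg => ⟨φ g, hg⟩,
    fun g hg => Subtype.ext (Equiv.ext hg), fun a b hab => ?_,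
    fun a => (h3 a).elim fun T hT => ⟨T.mapSurjective hφ, (k1 _ a).2 hT⟩,
    fun T Y H e1 e2 e3 e4 => ((k2 Y e2).amb e1 e3 (by rwa [stab_base])).ratio e3,
    fun T Y b e1 e2 e3 e4 => ((k2 Y e2).amb e1 e3 e4).2⟩
  · have := c.main hab (S.mapSurjective hφ)
    have e2 : (Fx ((S.mapSurjective hφ : Sylow p _) : Subgroup (toPermHom G Ω).range) : Set Ω) =
      Fx (S : Subgroup G) := Set.ext fun c => k1 _ c
    simp only [fx, mm, e2] at this
    exact this
  · rw [eq_top_iff, ← map_top_of_surjective φ hφ, ← h2 a b hab, Subgroup.map_sup]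
    exact sup_le_sup ((map_gen_le _ _).trans (gen_mono ((k1 _ a).2 le_rfl)))
      ((map_gen_le _ _).trans (gen_mono ((k1 _ b).2 le_rfl)))

theorem top_step (ih : ∀ (Y : Type u) [Group Y] [Finite Y], Nat.card Y < Nat.card G → Top p Y) :
    Top p G := by
  intro Ω _ _ S b h1 h2
  have h3 := mm_orb_pos h1 (S := S) le_top h2
  have h4 := ncard_eq S.isPGroup' ((inv_orb (⊤ : Subgroup G) b).mono le_top)
  have h5 := fx_mul_nu (S := S) (Y := ⊤) le_top b
  have hp2 := hp.out.two_le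
  rcases Nat.eq_zero_or_pos (fx (S : Subgroup G) (orb (⊤ : Subgroup G) b)) with h6 | h6
  · refine ⟨by rw [h6, zero_add]; exact Nat.le_mul_of_pos_left _ hp.out.pos, ?_⟩
    by_cases h7 : (orb (⊤ : Subgroup G) b).ncard < 2 * p
    · exact Or.inl (TA_of_small h2 h7)
    · rw [h4, h6, zero_add, not_lt, mul_comm 2] at h7
      have := Nat.le_of_mul_le_mul_left h7 hp.out.pos
      exact Or.inr ⟨1, by omega, by nlinarith⟩
  obtain ⟨T, hT⟩ := exists_of_nu_pos
    (Nat.pos_of_mul_pos_left (h5 ▸ mul_pos h6 (nu_pos (S := S) le_top)))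
  rw [top_inf_eq] at hT
  obtain ⟨X, x1, x2⟩ := Finite.exists_le_maximal (p := fun X => X < ⊤ ∧ gen p X = X)
    (a := gen p (stabilizer G b)) ⟨lt_top_iff_ne_top.2 fun e => h2 (e.ge.trans (gen_le _)), gen_gen _⟩
  have x3 : (T : Subgroup G) ≤ X := (syl_le_gen hT).trans x1
  have x4 : gen p 𝐍(X) = X := le_antisymm (gen_le_of_normal' (x3.trans le_normalizer) x3 le_rfl)
    (le_gen x2.1.2 le_normalizer)
  have x5 : 𝐍(X) ≠ ⊤ := fun e => x2.1.1.ne (by rw [← x4, e, h1])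
  have x6 : ∀ u : G, gen p (stabilizer G (u • ((1 : G) : G ⧸ 𝐍(X)))) = u ⋆ X := fun u => by
    rw [L1_conj, stab_base, x4]
  have x7 : orb (⊤ : Subgroup G) ((1 : G) : G ⧸ 𝐍(X)) = Set.univ :=
    Set.eq_univ_of_forall fun x => (exists_smul_eq G _ x).imp fun g hg => ⟨mem_top g, hg⟩
  obtain ⟨g, hg⟩ : ∃ g : G, g ∉ 𝐍(X) := by
    by_contra e
    push Not at e
    exact x5 (eq_top_iff.2 fun g _ => e g)
  obtain ⟨m1, m2⟩ := main' ih (Ω := G ⧸ 𝐍(X)) (exists_smul_eq G) (fun x y hxy => by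
      obtain ⟨u, rfl⟩ := exists_smul_eq G ((1 : G) : G ⧸ 𝐍(X)) x
      obtain ⟨v, rfl⟩ := exists_smul_eq G ((1 : G) : G ⧸ 𝐍(X)) y
      by_contra e
      have e1 := x2.2 (y := u⁻¹ ⋆ (u ⋆ X ⊔ v ⋆ X)) ⟨(map_conj_lt_map_conj u⁻¹
        (lt_top_iff_ne_top.2 (x6 u ▸ x6 v ▸ e))).trans_le le_top, by
          rw [gen_conj, ← x6 u, ← x6 v, gen_sup (gen_gen _) (gen_gen _)]⟩
        ((map_conj_inv_map_conj u X).ge.trans (map_mono le_sup_left))
      have e2 : (u⁻¹ * v) ⋆ X = X := eq_of_le_of_card_le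
        ((map_conj_mul _ _ _).le.trans ((map_mono le_sup_right).trans e1)) (card_map_conj _ _).ge
      have e3 : (u⁻¹ * v) • ((1 : G) : G ⧸ 𝐍(X)) = ((1 : G) : G ⧸ 𝐍(X)) :=
        (stab_base _).ge (mem_normalizer_of_map_conj_eq e2)
      exact hxy (by rw [mul_smul, inv_smul_eq_iff] at e3; exact e3.symm))
    (fun x => by
      obtain ⟨u, rfl⟩ := exists_smul_eq G ((1 : G) : G ⧸ 𝐍(X)) x
      exact ⟨u • T, by
        rw [sylow_coe_smul_eq_map, conj_le_stab, stab_base]; exact x3.trans le_normalizer⟩)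
    (a := g • ((1 : G) : G ⧸ 𝐍(X))) (b := ((1 : G) : G ⧸ 𝐍(X)))
    (fun e => hg ((stab_base _).le e)) S
  rw [← x7] at m1 m2
  have m3 := (ratio_of_slope le_top _).2 ((slope_one hp.out.pos).2 m1)
  have m4 := fx_mul_nu (S := S) (Y := ⊤) le_top ((1 : G) : G ⧸ 𝐍(X))
  rw [stab_base, top_inf_eq, ← nu_gen 𝐍(X), x4] at m3 m4
  by_cases h7 : X ≤ stabilizer G b
  · have y1 : gen p (stabilizer G b) = X := le_antisymm x1 (le_gen x2.1.2 h7)
    have y2 : stabilizer G b ≤ 𝐍(X) := y1 ▸ le_norm_gen _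
    have y3 : (orb (⊤ : Subgroup G) b).ncard = (stabilizer G b).relIndex 𝐍(X) *
        (orb (⊤ : Subgroup G) ((1 : G) : G ⧸ 𝐍(X))).ncard := by
      rw [ncard_orb, ncard_orb, stab_base, relIndex_mul_relIndex _ _ _ y2 le_top]
    have y4 := Nat.pos_of_ne_zero (relIndex_ne_zero' (stabilizer G b) 𝐍(X))
    set k := (stabilizer G b).relIndex 𝐍(X)
    rw [top_inf_eq, ← nu_gen (stabilizer G b), y1, y3, mul_assoc, ← m4, ← mul_assoc] at h5
    have y5 := Nat.eq_of_mul_eq_mul_right (nu_pos (S := S) le_top) h5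
    rw [h4, y5, ncard_eq S.isPGroup' ((inv_orb (⊤ : Subgroup G) _).mono le_top), mul_add, mul_left_comm] at y3
    have y6 := Nat.eq_of_mul_eq_mul_left hp.out.pos (Nat.add_left_cancel y3)
    unfold Good
    rw [y5, y6]
    refine ⟨by rw [← mul_add, mul_left_comm]; exact Nat.mul_le_mul_left k m1, m2.imp (fun e => ?_) ?_⟩
    · exact ⟨𝐍(X), inf_le_right.trans y2, lt_top_iff_ne_top.2 x5,
        by rwa [ncard_orb, stab_base] at e, x4.le.trans h7⟩
    · rintro ⟨w, w1, w2⟩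
      exact ⟨k * w, by rw [mul_left_comm]; exact Nat.mul_lt_mul_of_pos_left w1 y4, by
        rw [mul_left_comm, ← mul_add, mul_left_comm p]; exact Nat.mul_le_mul_left k w2⟩
  have z1 := ((ih X (card_lt_of_ne_top x2.1.1.ne)).amb x2.1.2 x3
    (b := ((1 : G) : G ⧸ stabilizer G b)) (by rwa [stab_base])).ratio x3
  have z2 : nu p (⊤ ⊓ stabilizer G b) ≤ nu p (X ⊓ stabilizer G b) := by
    rw [top_inf_eq, ← nu_gen]
    exact nu_mono (le_inf x1 (gen_le _))
  refine ⟨(slope_one hp.out.pos).1 ((ratio_of_slope le_top b).1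
    ((Nat.mul_le_mul_left _ (z2.trans (nu_mono inf_le_left))).trans m3)), ?_⟩
  refine (em _).symm.imp_left fun e => TA_of_small h2 (h4 ▸ small_arith hp2
    ((ratio_of_slope le_top b).1 ?_) (bound_of_not_TN hp.out.pos e))
  calc _ ≤ (2 * p - 1) * ((p - 1) * nu p X) := by
        rw [mul_assoc]
        exact Nat.mul_le_mul_left _ ((Nat.mul_le_mul_left _ z2).trans z1)
    _ ≤ _ := by
        rw [mul_left_comm, mul_assoc]
        exact Nat.mul_le_mul_left _ m3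

theorem top_all (G : Type u) [Group G] [Finite G] : Top p G :=
  card_induction (P := fun X _ _ => Top p X) (fun _ _ _ ih => top_step ih) G

theorem nu_eq_card {S : Sylow p G} {H : Subgroup G} (h : (S : Subgroup G) ≤ H) :
    nu p H = Nat.card (Sylow p H) := by
  rw [nu_eq_relIndex h, Sylow.card_eq_index_normalizer (S.subtype h), relIndex,
    subgroupOf_normalizer_eq h]
  rfl

theorem sylow_ratio (h1 : gen p (⊤ : Subgroup G) = ⊤) {H : Subgroup G} (hH : H ≠ ⊤)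
    (P : Sylow p G) (hP : (P : Subgroup G) ≤ H) :
    (2 * p - 1) * Nat.card (Sylow p H) ≤ (p - 1) * Nat.card (Sylow p G) := by
  have := (top_all G (G ⧸ H) P ((1 : G) : G ⧸ H) h1
    (by rw [stab_base]; exact fun e => hH (top_le_iff.1 e))).ratio le_top
  rw [top_inf_eq, nu_eq_card hP] at this
  convert this
  rw [nu, ← Set.ncard_univ]
  congr 1
  ext S
  simp

end CfsgLib.SylNum
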